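import Cfsg.Agent.H296.BD.SizeCore
import Cfsg.Agent.H589.BD.Defs
import Cfsg.Agent.H816.OutEmb
import Cfsg.Agent.Blocks.PrincipalSection

/-!
# S4932: `kill_size` from the basic facts on the principal block of almost simple groups (helper296)

* `CoreAt p S A N M` : the facts on `B₀(A)`, `A` over `S` with normal subgroup `N`: the column relation and covering;
* `kill_of_core` : `Kill p S` from these facts and the size condition.
-/

set_option autoImplicit false
set_option linter.unusedSectionVars false

namespace Cfsg.Agent.H296.BD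

open Cfsg Cfsg.Agent.Characters Cfsg.Agent.H589.BD

universe u

theorem index_dvd {S : Type u} [Group S] [Finite S] {A : Type u} [Group A] [Finite A] {N : Subgroup A}
    (h : Over S N) : N.index ∣ Nat.card (Out S) := by
  have hN := h.normal
  obtain ⟨e⟩ := h.iso
  obtain ⟨e'⟩ := H816.OutEmb.out_congr e
  rw [← Nat.card_congr e'.toEquiv]
  exact H816.OutEmb.index_dvd N (by rw [h.cent]; exact bot_le)

/-- the facts used for one almost simple group -/
structure CoreAt (S : Type u) [Group S] {A : Type u} [Group A] (N : Subgroup A) (p D : ℕ)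
    (F : Finset (IrrCharacter A)) : Prop where
  pos : 0 < D
  le : D ≤ Nat.card (Out S)
  col : ∀ u ∈ N, p ∣ orderOf u → (D : ℂ) + ∑ χ ∈ F, (χ : A → ℂ) 1 * (χ : A → ℂ) u = 0
  big : ∀ χ ∈ F, Nat.card (Out S) < charDegree (χ : A → ℂ)

theorem one_mem_cd0 {p : ℕ} {M : Ideal AlgInt} (hM : IsPModular p M) {A : Type u} [Group A] [Finite A] :
    1 ∈ cd0 M A := by
  have := Blocks.Local.isPrime_of_isPModular hM
  refine ⟨_, Blocks.PrincipalSection.one_mem_principalBlock, ?_⟩
  unfold charDegree
  simp

theorem finite_cd0 (M : Ideal AlgInt) {A : Type u} [Group A] [Finite A] : (cd0 M A).Finite := by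
  have : Finite (IrrCharacter A) := Core.finite_irr
  refine (Set.finite_range (fun χ : IrrCharacter A => charDegree (χ : A → ℂ))).subset ?_
  rintro d ⟨χ, -, h⟩
  exact ⟨χ, h⟩

/-- **The size criterion for one almost simple group.** -/
theorem three_lt {S : Type u} [Group S] [Finite S] {A : Type u} [Group A] [Finite A] {N : Subgroup A}
    (hN : Over S N) {M : Ideal AlgInt} {p D : ℕ} (hM : IsPModular p M) {F : Finset (IrrCharacter A)} (hF : CoreAt S N p D F)
    (hFM : ∀ χ ∈ F, χ ∈ principalBlock M A) {da db : ℕ} {x y : IrrCharacter A} (hx : x ∈ F) (hy : y ∈ F)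
    (hxa : charDegree (x : A → ℂ) ≤ Nat.card (Out S) * da) (hyb : db ≤ charDegree (y : A → ℂ)) (e : N ≃* S) (u : S)
    (hu : p ∣ orderOf u)
    (h1 : Nat.card (Out S) * (1 + Nat.card (Out S) * Nat.card (Subgroup.centralizer ({u} : Set S)) * da) < db) :
    3 < (cd0 M A).ncard := by
  classical
  set o := Nat.card (Out S) with ho
  have ho1 : 0 < o := hF.pos.trans_le hF.le
  have hc1 : 0 < Nat.card (Subgroup.centralizer ({u} : Set S)) := Nat.card_pos
  set c := Nat.card (Subgroup.centralizer ({u} : Set S)) with hc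
  set a := charDegree (y : A → ℂ) with ha
  set b := charDegree (x : A → ℂ) with hb
  have hab : b < a := by
    refine hxa.trans_lt ((?_ : o * da ≤ o * (1 + o * c * da)).trans_lt (h1.trans_le hyb))
    refine Nat.mul_le_mul_left _ ?_
    have h2 : 1 * 1 * da ≤ o * c * da := Nat.mul_le_mul_right _ (Nat.mul_le_mul ho1 hc1)
    omega
  by_contra hcon
  have hob : o < b := hF.big x hx
  -- all degrees are `a` or `b`
  have hdeg : ∀ χ ∈ F, charDegree (χ : A → ℂ) = a ∨ charDegree (χ : A → ℂ) = b := by
    intro χ hχ
    by_contra hne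
    push Not at hne
    apply hcon
    have h3 : ({1, a, b, charDegree (χ : A → ℂ)} : Finset ℕ).card = 4 := by
      have hχo : o < charDegree (χ : A → ℂ) := hF.big χ hχ
      rw [Finset.card_insert_of_notMem, Finset.card_insert_of_notMem, Finset.card_insert_of_notMem,
        Finset.card_singleton]
      · rw [Finset.mem_singleton]
        exact fun h => hne.2 h.symm
      · rw [Finset.mem_insert, Finset.mem_singleton, not_or]
        exact ⟨hab.ne', fun h => hne.1 h.symm⟩
      · rw [Finset.mem_insert, Finset.mem_insert, Finset.mem_singleton, not_or, not_or]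
        omega
    have h4 : ((({1, a, b, charDegree (χ : A → ℂ)} : Finset ℕ) : Set ℕ)) ⊆ cd0 M A := by
      intro d hd
      rw [Finset.coe_insert, Finset.coe_insert, Finset.coe_insert, Finset.coe_singleton, Set.mem_insert_iff,
        Set.mem_insert_iff, Set.mem_insert_iff, Set.mem_singleton_iff] at hd
      rcases hd with rfl | rfl | rfl | rfl
      · exact one_mem_cd0 hM
      · exact ⟨y, hFM y hy, rfl⟩
      · exact ⟨x, hFM x hx, rfl⟩
      · exact ⟨χ, hFM χ hχ, rfl⟩
    have h5 := Set.ncard_le_ncard h4 (finite_cd0 M)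
    rw [Set.ncard_coe_finset, h3] at h5
    exact h5
  -- the estimate
  set v : N := e.symm u with hv
  have hvo : ∀ k : ℕ, k.Coprime (Nat.card A) → p ∣ orderOf ((v : A) ^ k) := by
    intro k hk
    have h3 : orderOf ((v : A) ^ k) = orderOf (v : A) :=
      (Nat.Coprime.orderOf_pow (hk.symm.coprime_dvd_left (orderOf_dvd_natCard (v : A))))
    rw [h3, Subgroup.orderOf_coe, hv, MulEquiv.orderOf_eq]
    exact hu
  have h3 := size_core F hdeg hF.pos hF.le hob (v : A) fun k hk => hF.col _ (pow_mem v.2 k) (hvo k hk)
  have h4 := card_centralizer_le N v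
  have hev : e v = u := e.apply_symm_apply u
  have h5 : Nat.card (Subgroup.centralizer ({v} : Set N)) = c := by
    rw [hc]
    refine Nat.card_congr ⟨fun z => ⟨e (z : N), ?_⟩, fun z => ⟨e.symm (z : S), ?_⟩, fun z => ?_, fun z => ?_⟩
    · rw [Subgroup.mem_centralizer_singleton_iff]
      have h6 := congrArg e (Subgroup.mem_centralizer_singleton_iff.1 z.2)
      rwa [map_mul, map_mul, hev] at h6
    · rw [Subgroup.mem_centralizer_singleton_iff]
      have h6 := congrArg e.symm (Subgroup.mem_centralizer_singleton_iff.1 z.2)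
      rwa [map_mul, map_mul] at h6
    · exact Subtype.ext (e.symm_apply_apply _)
    · exact Subtype.ext (e.apply_symm_apply _)
  rw [h5] at h4
  have h6 : N.index ≤ o := Nat.le_of_dvd ho1 (index_dvd hN)
  have h7 : a ≤ o + (o * da) * (o * c) := by
    refine h3.trans ?_
    gcongr
    exact h4.trans (Nat.mul_le_mul_right _ h6)
  have h8 : o + (o * da) * (o * c) = o * (1 + o * c * da) := by ring
  rw [h8] at h7
  exact absurd (h1.trans_le hyb) (not_lt.2 h7)

end Cfsg.Agent.H296.BD
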