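import Cfsg.Agent.H296.BD.Abs
import Cfsg.Agent.H589.BD.Core

/-!
# The size criterion of S4932 (helper296)

`kill_size` : `α`, `β` nontrivial in `B₀(S)`, `u` a `p`-singular element and `β(1) > o (1 + o |C_S(u)| α(1))`,
`o = |Out S|`: `Kill p S`.
-/

set_option autoImplicit false
set_option linter.unusedSectionVars false

namespace Cfsg.Agent.H296.BD

open Cfsg Cfsg.Agent.H589.BD Cfsg.Agent.H686.CharKit

universe u

variable {p : ℕ} [Fact p.Prime] {S : Type u} [Group S] [Finite S]

/-- **The size criterion.** -/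
theorem kill_size [IsSimpleGroup S] (_hna : ¬ IsMulCommutative S) (hS : SizeOK S) (α β : IrrCharacter S)
    (hα : InB0 p α) (hβ : InB0 p β) (nα : NT α) (nβ : NT β) (u : S) (hu : p ∣ orderOf u)
    (h1 : Nat.card (Out S) * (1 + Nat.card (Out S) * Nat.card (Subgroup.centralizer ({u} : Set S)) *
      charDegree (α : S → ℂ)) < charDegree (β : S → ℂ)) : Kill p S := by
  intro A _ _ N hN M hM
  obtain ⟨D, hD0, hDo, hrel⟩ := relation hM hN
  obtain ⟨x, mx, dx, ex⟩ := above hM hN α hα nα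
  obtain ⟨y, my, dy, -⟩ := above hM hN β hβ nβ
  obtain ⟨e⟩ := hN.iso
  have hF : CoreAt S N p D (nb M N) := by
    refine ⟨hD0, hDo, fun u hu hp => ?_, fun χ hχ => ?_⟩
    · have h2 := hrel u hp hu
      rw [← h2]
      congr 1
      exact Finset.sum_congr rfl fun χ _ => by rw [Blocks.Knorr.charDegree_eq χ.2]
    · obtain ⟨θ, -, h3, h4, -⟩ := below hM hN hχ
      exact (hS θ h3).trans_le (Nat.le_of_dvd (charDegree_pos χ) h4)
  refine three_lt hN hM hF (fun χ hχ => (mem_nb.1 hχ).1) mx my ?_ (Nat.le_of_dvd (charDegree_pos y) dy) e u hu h1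
  have h2 := Nat.le_of_dvd Nat.card_pos ex
  calc charDegree (x : A → ℂ) = charDegree (x : A → ℂ) / charDegree (α : S → ℂ) * charDegree (α : S → ℂ) :=
        (Nat.div_mul_cancel dx).symm
    _ ≤ Nat.card (Out S) * charDegree (α : S → ℂ) := Nat.mul_le_mul_right _ h2

end Cfsg.Agent.H296.BD
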