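import Cfsg.Agent.H296.BD.Conj
import Cfsg.Agent.Blocks.Knorr

/-!
# The size estimate of S4932 (helper296)

`size_core` : the characters in `F` have degree `a` or `b`, `0 < D ≤ o < b`, `D + ∑ χ ∈ F, χ(1) χ(u ^ k) = 0` for all
`k` prime to `|A|`: then `a ≤ o + b |C_A(u)|`.
-/

set_option autoImplicit false
set_option linter.unusedSectionVars false

namespace Cfsg.Agent.H296.BD

open Cfsg Cfsg.Agent.Characters

universe u

theorem size_core {A : Type u} [Group A] [Finite A] (F : Finset (IrrCharacter A)) {a b D o : ℕ}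
    (hF : ∀ χ ∈ F, charDegree (χ : A → ℂ) = a ∨ charDegree (χ : A → ℂ) = b) (hD : 0 < D) (hDo : D ≤ o)
    (hbo : o < b) (u : A)
    (hu : ∀ k : ℕ, k.Coprime (Nat.card A) → (D : ℂ) + ∑ χ ∈ F, (χ : A → ℂ) 1 * (χ : A → ℂ) (u ^ k) = 0) :
    a ≤ o + b * Nat.card (Subgroup.centralizer ({u} : Set A)) := by
  classical
  set Fa := F.filter (fun χ : IrrCharacter A => charDegree (χ : A → ℂ) = a) with hFa
  set Fb := F.filter (fun χ : IrrCharacter A => ¬ charDegree (χ : A → ℂ) = a) with hFb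
  have hsplit : ∀ x : A, ∑ χ ∈ F, (χ : A → ℂ) 1 * (χ : A → ℂ) x =
      a * (∑ χ ∈ Fa, (χ : A → ℂ) x) + b * (∑ χ ∈ Fb, (χ : A → ℂ) x) := by
    intro x
    rw [← Finset.sum_filter_add_sum_filter_not F (fun χ : IrrCharacter A => charDegree (χ : A → ℂ) = a), Finset.mul_sum,
      Finset.mul_sum]
    congr 1
    · refine Finset.sum_congr rfl fun χ hχ => ?_
      rw [Blocks.Knorr.charDegree_eq χ.2, (Finset.mem_filter.1 hχ).2]
    · refine Finset.sum_congr rfl fun χ hχ => ?_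
      obtain ⟨h1, h2⟩ := Finset.mem_filter.1 hχ
      rw [Blocks.Knorr.charDegree_eq χ.2, (hF χ h1).resolve_left h2]
  -- the `a`-part does not vanish
  have hA : ∑ χ ∈ Fa, (χ : A → ℂ) u ≠ 0 := by
    intro h0
    have h1 := hu 1 (Nat.coprime_one_left _)
    rw [pow_one, hsplit, h0, mul_zero, zero_add] at h1
    have hint : IsIntegral ℤ (∑ χ ∈ Fb, (χ : A → ℂ) u) :=
      IsIntegral.sum _ fun χ _ => GaloisBasic.isIntegral_apply (Core.isIrr_isCharacter χ.2) _
    have hb0 : (b : ℂ) ≠ 0 := by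
      have : b ≠ 0 := by omega
      exact_mod_cast this
    have h2 : ∑ χ ∈ Fb, (χ : A → ℂ) u = (((-(D : ℚ)) / b : ℚ) : ℂ) := by
      push_cast
      field_simp
      linear_combination h1
    obtain ⟨k, hk⟩ := GaloisBasic.exists_int_of_isIntegral hint ⟨_, h2⟩
    rw [hk] at h1
    have h3 : (D : ℤ) + b * k = 0 := by exact_mod_cast h1
    have h4 : (b : ℤ) ∣ D := ⟨-k, by linear_combination h3⟩
    have h5 : b ∣ D := by exact_mod_cast h4
    have := Nat.le_of_dvd hD h5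
    omega
  obtain ⟨k, hk, hk1⟩ := exists_conj Fa hA
  have h1 := hu k hk
  rw [hsplit] at h1
  have h2 : (a : ℝ) ≤ D + b * ∑ χ ∈ Fb, ‖(χ : A → ℂ) (u ^ k)‖ := by
    calc (a : ℝ) ≤ a * ‖∑ χ ∈ Fa, (χ : A → ℂ) (u ^ k)‖ := le_mul_of_one_le_right (Nat.cast_nonneg _) hk1
      _ = ‖(a : ℂ) * ∑ χ ∈ Fa, (χ : A → ℂ) (u ^ k)‖ := by rw [norm_mul, Complex.norm_natCast]
      _ = ‖-((D : ℂ) + b * ∑ χ ∈ Fb, (χ : A → ℂ) (u ^ k))‖ := by
          congr 1
          linear_combination h1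
      _ = ‖(D : ℂ) + b * ∑ χ ∈ Fb, (χ : A → ℂ) (u ^ k)‖ := norm_neg _
      _ ≤ ‖(D : ℂ)‖ + ‖(b : ℂ) * ∑ χ ∈ Fb, (χ : A → ℂ) (u ^ k)‖ := norm_add_le _ _
      _ = D + b * ‖∑ χ ∈ Fb, (χ : A → ℂ) (u ^ k)‖ := by
          rw [norm_mul, Complex.norm_natCast, Complex.norm_natCast]
      _ ≤ D + b * ∑ χ ∈ Fb, ‖(χ : A → ℂ) (u ^ k)‖ := by
          have := norm_sum_le Fb (fun χ => (χ : A → ℂ) (u ^ k))
          gcongr
  have h3 : ∑ χ ∈ Fb, ‖(χ : A → ℂ) (u ^ k)‖ ≤ Nat.card (Subgroup.centralizer ({u} : Set A)) := by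
    have := sum_norm_le Fb (u ^ k)
    rwa [centralizer_pow u hk] at this
  have h4 : (a : ℝ) ≤ o + b * Nat.card (Subgroup.centralizer ({u} : Set A)) := by
    refine h2.trans ?_
    have : (D : ℝ) ≤ o := by exact_mod_cast hDo
    gcongr
  exact_mod_cast h4

/-- the centralizer in an overgroup -/
theorem card_centralizer_le {A : Type u} [Group A] [Finite A] (N : Subgroup A) (u : N) :
    Nat.card (Subgroup.centralizer ({(u : A)} : Set A)) ≤ N.index * Nat.card (Subgroup.centralizer ({u} : Set N)) := by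
  set C := Subgroup.centralizer ({(u : A)} : Set A) with hC
  have h1 : Nat.card (Subgroup.centralizer ({u} : Set N)) = Nat.card (N.subgroupOf C) := by
    refine Nat.card_congr ⟨fun x => ⟨⟨(x : N), ?_⟩, ?_⟩, fun x => ⟨⟨((x : C) : A), ?_⟩, ?_⟩, fun x => rfl, fun x => rfl⟩
    · rw [hC, Subgroup.mem_centralizer_singleton_iff]
      have := Subgroup.mem_centralizer_singleton_iff.1 x.2
      exact congrArg Subtype.val this
    · exact Subgroup.mem_subgroupOf.2 (x : N).2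
    · exact Subgroup.mem_subgroupOf.1 x.2
    · rw [Subgroup.mem_centralizer_singleton_iff]
      exact Subtype.ext (Subgroup.mem_centralizer_singleton_iff.1 (x : C).2)
  rw [h1, ← Subgroup.index_mul_card (N.subgroupOf C)]
  refine Nat.mul_le_mul_right _ ?_
  have h2 := Subgroup.relIndex_le_of_le_right (H := N) (K := C) (L := ⊤) le_top
    (by rw [Subgroup.relIndex_top_right]; exact Subgroup.index_ne_zero_of_finite)
  rwa [Subgroup.relIndex_top_right] at h2

end Cfsg.Agent.H296.BD
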